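import Mathlib
import Cfsg.Agent.Lib.Helper50.QuadStd

set_option autoImplicit false

namespace Cfsg.Agent.Lib.Helper99.SPD

open Module LinearMap QuadraticMap Cfsg.Agent.Lib.Helper50.Quad

theorem card_sq_eq {F : Type*} [Field F] (h2 : (2 : F) ≠ 0) (a : F) (ha : a ≠ 0) :
    Nat.card {t : F // t ^ 2 = a} = 0 ∨ Nat.card {t : F // t ^ 2 = a} = 2 := by
  by_cases h : ∃ t : F, t ^ 2 = a
  · right
    obtain ⟨t, ht⟩ := h
    have ht0 : t ≠ 0 := by
      rintro rfl
      apply ha
      rw [← ht]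
      simp
    rw [Nat.card_eq_two_iff]
    refine ⟨⟨t, ht⟩, ⟨-t, by rw [neg_sq, ht]⟩, ?_, ?_⟩
    · intro h
      have h1 : t = -t := congrArg Subtype.val h
      have h3 : (2 : F) * t = 0 := by linear_combination h1
      exact (mul_ne_zero h2 ht0) h3
    · rw [Set.eq_univ_iff_forall]
      rintro ⟨x, hx⟩
      have h1 : (x - t) * (x + t) = 0 := by linear_combination hx - ht
      rcases mul_eq_zero.1 h1 with h3 | h3
      · left
        exact Subtype.ext (sub_eq_zero.1 h3)
      · right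
        exact Subtype.ext (eq_neg_of_add_eq_zero_left h3)
  · left
    rw [Nat.card_eq_zero]
    left
    exact ⟨fun x => h ⟨x.1, x.2⟩⟩

theorem sq_eq_one_iff_of_ne_zero' {F : Type*} [Field F] {x : F} (h : x ^ 2 = 1) :
    x = 1 ∨ x = -1 := by
  have h1 : (x - 1) * (x + 1) = 0 := by linear_combination h
  rcases mul_eq_zero.1 h1 with h3 | h3
  · left; exact sub_eq_zero.1 h3
  · right; exact eq_neg_of_add_eq_zero_left h3

theorem card_sq_eq_one {F : Type*} [Field F] (h2 : (2 : F) ≠ 0) :
    Nat.card {t : F // t ^ 2 = 1} = 2 := by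
  rcases card_sq_eq h2 1 one_ne_zero with h | h
  · exfalso
    rw [Nat.card_eq_zero] at h
    rcases h with h | h
    · exact h.elim ⟨1, one_pow 2⟩
    · have : Finite {t : F // t ^ 2 = 1} := by
        have hfin : Set.Finite {t : F | t ^ 2 = 1} := by
          apply Set.Finite.subset (Set.toFinite {(1 : F), -1})
          intro x hx
          have hx' : x ^ 2 = 1 := hx
          rcases sq_eq_one_iff_of_ne_zero' hx' with h | h <;> simp [h]
        exact hfin.to_subtype
      exact h.not_finite this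
  · exact h

theorem alpha_one (q : ℕ) (hq : 1 ≤ q) {F : Type*} (α₀ : F → ℕ) (c : F) (h : α₀ c = 2) (j : ℕ) :
    alpha q q α₀ j c = q ^ (2 * j) + q ^ j := by
  obtain ⟨r, rfl⟩ : ∃ r, q = r + 1 := ⟨q - 1, by omega⟩
  induction j with
  | zero => simp [alpha, h]
  | succ j ih =>
    rw [alpha, ih, Nat.add_sub_cancel]
    ring

/-- V -/
theorem card_V {F : Type*} [Field F] [Fintype F] (h2 : (2 : F) ≠ 0) (n : ℕ) :
    Nat.card {v : Unit ⊕ (Fin n ⊕ Fin n) → F // Cfsg.quadFormOdd n F v = 1} =
      Fintype.card F ^ (2 * n) + Fintype.card F ^ n := by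
  have h1 := card_level (F := F) (fun t : F => t ^ 2) n 1
  rw [Nat.card_eq_fintype_card (α := F),
    alpha_one _ Fintype.card_pos (fun c : F => Nat.card {s : F // s ^ 2 = c}) 1
      (card_sq_eq_one h2)] at h1
  rw [← h1]
  apply Nat.card_congr
  let e : (Unit ⊕ (Fin n ⊕ Fin n) → F) ≃ (Fin n → F × F) × F :=
    { toFun := fun v => (fun i => (v (.inr (.inl i)), v (.inr (.inr i))), v (.inl ()))
      invFun := fun p => Sum.elim (fun _ => p.2) (Sum.elim (fun i => (p.1 i).1) (fun i => (p.1 i).2))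
      left_inv := fun v => by
        funext x
        rcases x with x | x | x <;> rfl
      right_inv := fun p => rfl }
  refine e.subtypeEquiv ?_
  intro v
  rw [Cfsg.quadFormOdd, add_comm]
  exact Iff.rfl

/-- U -/
theorem card_U {F V : Type*} [Field F] [Fintype F] [AddCommGroup V] [Module F V] [Finite V]
    (h2 : (2 : F) ≠ 0) (Q : QuadraticForm F V) (U : Submodule F V) (hdim : finrank F U = 3)
    (hnd : Nondeg Q U) (e : V) (heU : e ∈ U) (he0 : e ≠ 0) (hee : Q e = 0) (c : F) (hc : c ≠ 0) :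
    aC Q U c = Fintype.card F ^ 2 + Fintype.card F ∨
      aC Q U c = Fintype.card F ^ 2 - Fintype.card F := by
  set q := Fintype.card F with hq
  have hq1 : 1 ≤ q := Fintype.card_pos
  have hUcard : Nat.card U = q ^ 3 := by
    rw [Module.natCard_eq_pow_finrank (K := F), hdim, Nat.card_eq_fintype_card]
  have h1 := card_hyp_snd U hnd e heU he0 hee
  rw [hUcard] at h1
  have hne : Nonempty {f : V // f ∈ U ∧ Q f = 0 ∧ polar Q e f = 1} := by
    by_contra hcon
    rw [not_nonempty_iff] at hcon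
    rw [Nat.card_of_isEmpty, mul_zero] at h1
    have : 0 < q ^ 3 := by positivity
    omega
  obtain ⟨f, hfU, hQf, hef⟩ := hne
  have hhyp : IsHyp Q U (e, f) := ⟨heU, hfU, hee, hQf, hef⟩
  have hrec := aC_rec U e f hhyp c
  have hcp := card_perp2 U e f hhyp
  rw [hUcard] at hcp
  set L := perp2 Q U e f with hL
  have hLcard : Nat.card L = q := by
    have h3 : q * q * q = q * q * Nat.card L := by rw [← hcp]; ring
    exact (Nat.eq_of_mul_eq_mul_left (by positivity) h3).symm
  have hLnd : Nondeg Q L := nondeg_perp2 U e f hhyp hnd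
  have hLdim : finrank F L = 1 := by
    have h3 := Module.natCard_eq_pow_finrank (K := F) (V := L)
    rw [hLcard, Nat.card_eq_fintype_card, ← hq] at h3
    have hq2 : 1 < q := Fintype.one_lt_card
    have h4 : q ^ 1 = q ^ finrank F L := by rw [pow_one]; exact h3
    exact (Nat.pow_right_injective hq2 h4).symm
  obtain ⟨d, hd0, hd⟩ := finrank_eq_one_iff'.1 hLdim
  have hd0' : (d : V) ≠ 0 := fun h => hd0 (Subtype.ext h)
  have hQd : Q (d : V) ≠ 0 := by
    obtain ⟨w, hw, hpw⟩ := hLnd d d.2 hd0'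
    obtain ⟨t, ht⟩ := hd ⟨w, hw⟩
    have ht' : w = t • (d : V) := by
      have := congrArg Subtype.val ht
      exact this.symm
    intro h0
    apply hpw
    rw [ht', polar_smul_right, polar_self, h0]
    simp
  have hLc : aC Q L c = Nat.card {t : F // t ^ 2 = c / Q (d : V)} := by
    rw [aC]
    apply Nat.card_congr
    refine Equiv.symm (Equiv.ofBijective (fun t => ⟨t.1 • (d : V), L.smul_mem _ d.2, ?_⟩) ⟨?_, ?_⟩)
    · rw [QuadraticMap.map_smul, smul_eq_mul, ← pow_two, t.2]
      field_simp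
    · intro t t' h
      have h3 : t.1 • (d : V) = t'.1 • (d : V) := congrArg Subtype.val h
      apply Subtype.ext
      exact smul_left_injective F hd0' h3
    · rintro ⟨w, hw, hQw⟩
      obtain ⟨t, ht⟩ := hd ⟨w, hw⟩
      have ht' : t • (d : V) = w := congrArg Subtype.val ht
      refine ⟨⟨t, ?_⟩, Subtype.ext ht'⟩
      rw [← ht', QuadraticMap.map_smul, smul_eq_mul] at hQw
      rw [← hQw]
      field_simp
  rw [hLc, hLcard] at hrec
  rcases card_sq_eq h2 (c / Q (d : V)) (div_ne_zero hc hQd) with h | h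
  · right
    rw [hrec, h, ← hq, mul_zero, zero_add, Nat.sub_mul, one_mul, pow_two]
  · left
    rw [hrec, h, ← hq]
    obtain ⟨r, hr⟩ : ∃ r, q = r + 1 := ⟨q - 1, by omega⟩
    rw [hr, Nat.add_sub_cancel]
    ring

end Cfsg.Agent.Lib.Helper99.SPD
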