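import Mathlib
import Cfsg.Agent.Lib.Helper48.SpExist
import Cfsg.Agent.Lib.Helper48.SpTori
import Cfsg.Agent.S0245

set_option autoImplicit false

namespace Cfsg.Agent.Lib.Helper99.SPD

open Module LinearMap Finset Cfsg.Agent.Lib.Helper17 Cfsg.Agent.Lib.Helper48

variable {F : Type*} [Field F] [Fintype F]

theorem exists_PSp_order (p : ℕ) [Fact p.Prime] [CharP F p]
    (h2 : (2 : F) ≠ 0) {n : ℕ} (hn : 2 ≤ n) :
    ∃ y : Cfsg.PSp n F, orderOf y = p * (Fintype.card F ^ (n - 1) + 1) := by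
  have hp : p.Prime := Fact.out
  obtain ⟨n₁, hn₁⟩ : ∃ n₁, n₁ = n - 1 := ⟨_, rfl⟩
  rw [← hn₁]
  set m := Fintype.card F ^ n₁ + 1 with hm
  have hpq : p ∣ Fintype.card F := by
    obtain ⟨k, _, hk⟩ := FiniteField.card F p
    rw [hk]
    exact dvd_pow_self p k.ne_zero
  have hcop : Nat.Coprime p m := by
    rw [Nat.Prime.coprime_iff_not_dvd hp]
    intro h
    have h1 : p ∣ Fintype.card F ^ n₁ := hpq.trans (dvd_pow_self _ (by omega))
    have h3 : p ∣ 1 := (Nat.dvd_add_right h1).1 h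
    exact hp.one_lt.ne' (Nat.dvd_one.1 h3)
  have hp2 : p ≠ 2 := by
    intro h
    apply h2
    have := CharP.cast_eq_zero F p
    rw [h] at this
    exact_mod_cast this
  have hc2 : p ∣ Nat.card (Matrix.symplecticGroup (Fin 1) F) := by
    rw [Cfsg.Agent.S0245.result rfl 1]
    apply Dvd.dvd.mul_right
    simp only [one_pow, pow_one]
    exact hpq
  obtain ⟨A₁, hA₁⟩ := exists_sp_orderOf_plus (F := F) h2 n₁ (by omega)
  obtain ⟨A₂, hA₂⟩ := exists_prime_orderOf_dvd_card' p hc2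
  set V₁ := Fin n₁ ⊕ Fin n₁ → F
  set V₂ := Fin 1 ⊕ Fin 1 → F
  let C : LinearMap.BilinForm F (V₁ × V₂) :=
    (sympB n₁ F).comp (LinearMap.fst F _ _) (LinearMap.fst F _ _) +
      (sympB 1 F).comp (LinearMap.snd F _ _) (LinearMap.snd F _ _)
  have hC : ∀ p q, C p q = sympB n₁ F p.1 q.1 + sympB 1 F p.2 q.2 := fun p q => rfl
  have hAlt : C.IsAlt := by
    intro x
    rw [hC, sympB_isAlt, sympB_isAlt, add_zero]
  have hnd : ∀ x, (∀ y, C x y = 0) → x = 0 := by
    rintro ⟨x₁, x₂⟩ hx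
    have e1 : x₁ = 0 := by
      apply (sympB_nondegenerate (F := F) n₁).1
      intro y
      have := hx (y, 0)
      rw [hC] at this
      simpa using this
    have e2 : x₂ = 0 := by
      apply (sympB_nondegenerate (F := F) 1).1
      intro y
      have := hx (0, y)
      rw [hC] at this
      simpa using this
    rw [e1, e2]
    rfl
  have hdim : finrank F (V₁ × V₂) = 2 * n := by
    rw [finrank_prod, Module.finrank_fintype_fun_eq_card, Module.finrank_fintype_fun_eq_card]
    simp only [Fintype.card_sum, Fintype.card_fin]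
    omega
  set T₁ : End F V₁ := Matrix.mulVecLin (A₁ : Matrix (Fin n₁ ⊕ Fin n₁) (Fin n₁ ⊕ Fin n₁) F)
  set T₂ : End F V₂ := Matrix.mulVecLin (A₂ : Matrix (Fin 1 ⊕ Fin 1) (Fin 1 ⊕ Fin 1) F)
  let T : End F (V₁ × V₂) := LinearMap.prodMap T₁ T₂
  have hprod1 : ∀ (f : End F V₁) (g : End F V₂),
      (LinearMap.prodMap f g : End F (V₁ × V₂)) = 1 ↔ f = 1 ∧ g = 1 := by
    intro f g
    constructor
    · intro h
      constructor
      · apply LinearMap.ext
        intro x
        have := congrArg (fun φ : End F (V₁ × V₂) => (φ (x, 0)).1) h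
        simpa using this
      · apply LinearMap.ext
        intro x
        have := congrArg (fun φ : End F (V₁ × V₂) => (φ (0, x)).2) h
        simpa using this
    · rintro ⟨rfl, rfl⟩
      apply LinearMap.ext
      rintro ⟨x, y⟩
      rfl
  have hT2ord : ∀ j, T₂ ^ j = 1 ↔ p ∣ j := by
    intro j
    rw [← (sp_pow_iff A₂ j).1, ← orderOf_dvd_iff_pow_eq_one, hA₂]
  have hTord : ∀ j, T ^ j = 1 ↔ p * m ∣ j := by
    intro j
    rw [prodMap_pow', hprod1, ← (sp_pow_iff A₁ j).1, hT2ord,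
      ← orderOf_dvd_iff_pow_eq_one, hA₁]
    exact ⟨fun h => hcop.mul_dvd_of_dvd_of_dvd h.2 h.1,
      fun h => ⟨(Dvd.intro_left _ rfl).trans h, (Dvd.intro _ rfl).trans h⟩⟩
  have hTiso : IsoB C T := by
    intro x w
    rw [hC, hC]
    change sympB n₁ F (T₁ x.1) (T₁ w.1) + sympB 1 F (T₂ x.2) (T₂ w.2) = _
    rw [isoB_mulVecLin A₁, isoB_mulVecLin A₂]
  have hTneg : ∀ j, T ^ j ≠ -1 := by
    intro j hj
    rw [prodMap_pow'] at hj
    have h3 : T₂ ^ j = -1 := by
      apply LinearMap.ext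
      intro x
      have := congrArg (fun φ : End F (V₁ × V₂) => (φ (0, x)).2) hj
      simpa using this
    have h4 : T₂ ^ (2 * j) = 1 := by
      rw [mul_comm, pow_mul, h3, pow_two]
      apply LinearMap.ext
      intro x
      simp only [Module.End.mul_apply, LinearMap.neg_apply, Module.End.one_apply]
      exact neg_neg x
    have h5 : p ∣ j := by
      have h6 := (hT2ord _).1 h4
      exact ((Nat.coprime_primes hp Nat.prime_two).2 hp2).dvd_of_dvd_mul_left h6
    have h7 := (hT2ord _).2 h5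
    rw [h3] at h7
    have h8 := congrArg (fun φ : End F V₂ => φ (fun _ => 1) (Sum.inl 0)) h7
    simp only [LinearMap.neg_apply, Module.End.one_apply] at h8
    have h9 : (-1 : F) = 1 := h8
    apply h2
    linear_combination -h9
  obtain ⟨A, hA⟩ := exists_sp_of_isoB C hAlt hnd hdim T hTiso
  refine ⟨QuotientGroup.mk A, ?_⟩
  apply Nat.dvd_antisymm
  · rw [orderOf_mk_sp_dvd_iff]
    left
    rw [(hA _).1, hTord]
  · have h1 := (orderOf_mk_sp_dvd_iff A (orderOf (QuotientGroup.mk A : Cfsg.PSp n F))).1 dvd_rfl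
    rcases h1 with h1 | h1
    · exact (hTord _).1 ((hA _).1.1 h1)
    · exact absurd ((hA _).2.1 h1) (hTneg _)

end Cfsg.Agent.Lib.Helper99.SPD
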