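import Mathlib

set_option autoImplicit false

namespace Cfsg.Agent.Lib.Helper99.SPD

open Module LinearMap

/-- S -/
theorem exists_fixed_of_det_one {ι : Type*} [Fintype ι] [DecidableEq ι] {F : Type*} [Field F]
    (h2 : (2 : F) ≠ 0) (B : LinearMap.BilinForm F (ι → F))
    (hnd : ∀ x, (∀ y, B x y = 0) → x = 0) (A : Matrix ι ι F)
    (hA : ∀ x y, B (A.mulVec x) (A.mulVec y) = B x y) (hdet : A.det = 1)
    (hodd : Odd (Fintype.card ι)) : ∃ v : ι → F, v ≠ 0 ∧ A.mulVec v = v := by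
  set J := LinearMap.BilinForm.toMatrix' B with hJ
  have hBJ : ∀ x y, B x y = x ⬝ᵥ J.mulVec y := by
    intro x y
    have : B = Matrix.toBilin' J := by rw [hJ, Matrix.toBilin'_toMatrix']
    rw [this, Matrix.toBilin'_apply']
  have hJA : A.transpose * J * A = J := by
    have h1 : Matrix.toBilin' (A.transpose * J * A) = Matrix.toBilin' J := by
      apply LinearMap.ext₂
      intro x y
      rw [Matrix.toBilin'_apply', Matrix.toBilin'_apply', ← hBJ, ← hA x y, hBJ,
        ← Matrix.mulVec_mulVec, ← Matrix.mulVec_mulVec, Matrix.dotProduct_mulVec,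
        Matrix.vecMul_transpose]
    exact Matrix.toBilin'.injective h1
  have hJdet : J.det ≠ 0 := by
    intro h0
    obtain ⟨v, hv0, hv⟩ := Matrix.exists_vecMul_eq_zero_iff.2 h0
    apply hv0
    apply hnd
    intro y
    rw [hBJ, Matrix.dotProduct_mulVec, hv, zero_dotProduct]
  have h1 : A.transpose * J * (A - 1) = -((A - 1).transpose * J) := by
    rw [mul_sub, hJA, mul_one, Matrix.transpose_sub, Matrix.transpose_one, sub_mul, one_mul]
    abel
  have h3 := congrArg Matrix.det h1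
  rw [Matrix.det_mul, Matrix.det_mul, Matrix.det_transpose, hdet, one_mul, Matrix.det_neg,
    hodd.neg_one_pow, Matrix.det_mul, Matrix.det_transpose] at h3
  have h4 : (A - 1).det = 0 := by
    have h5 : (2 : F) * J.det * (A - 1).det = 0 := by linear_combination h3
    exact (mul_eq_zero.1 h5).resolve_left (mul_ne_zero h2 hJdet)
  obtain ⟨v, hv0, hv⟩ := Matrix.exists_mulVec_eq_zero_iff.2 h4
  refine ⟨v, hv0, ?_⟩
  rw [Matrix.sub_mulVec, Matrix.one_mulVec, sub_eq_zero] at hv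
  exact hv

/-- G -/
theorem sign_semiregular {α : Type*} [Fintype α] [DecidableEq α] (σ : Equiv.Perm α) {m : ℕ}
    (hm : Even m) (hσ : σ ^ m = 1)
    (h : ∀ x, σ x ≠ x → ∀ j, (σ ^ j) x = x → m ∣ j) :
    ∃ k, σ.support.card = m * k ∧ Equiv.Perm.sign σ = (-1) ^ k := by
  have hall : ∀ c ∈ σ.cycleType, c = m := by
    intro c hc
    have hc0 : c ∣ m := (Equiv.Perm.dvd_of_mem_cycleType hc).trans (orderOf_dvd_of_pow_eq_one hσ)
    rw [Equiv.Perm.cycleType_def, Multiset.mem_map] at hc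
    obtain ⟨τ, hτ, rfl⟩ := hc
    rw [Finset.mem_val, Equiv.Perm.mem_cycleFactorsFinset_iff] at hτ
    obtain ⟨hcyc, hτσ⟩ := hτ
    simp only [Function.comp] at hc0 ⊢
    rw [← hcyc.orderOf] at hc0 ⊢
    obtain ⟨x, hx, -⟩ := hcyc
    have hxs : x ∈ τ.support := Equiv.Perm.mem_support.2 hx
    have hpow : ∀ j : ℕ, (τ ^ j) x = (σ ^ j) x ∧ (τ ^ j) x ∈ τ.support := by
      intro j
      induction j with
      | zero => exact ⟨rfl, hxs⟩
      | succ j ih =>
        rw [pow_succ', pow_succ', Equiv.Perm.mul_apply, Equiv.Perm.mul_apply, hτσ _ ih.2, ih.1]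
        refine ⟨rfl, ?_⟩
        rw [← ih.1, ← hτσ _ ih.2]
        exact Equiv.Perm.apply_mem_support.2 ih.2
    have hσx : σ x ≠ x := by
      rw [← hτσ x hxs]
      exact hx
    apply Nat.dvd_antisymm
    · exact hc0
    · apply h x hσx
      rw [← (hpow _).1, pow_orderOf_eq_one]
      rfl
  have hrep : σ.cycleType = Multiset.replicate (Multiset.card σ.cycleType) m :=
    Multiset.eq_replicate_card.2 hall
  refine ⟨Multiset.card σ.cycleType, ?_, ?_⟩
  · rw [← Equiv.Perm.sum_cycleType]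
    conv_lhs => rw [hrep]
    simp [mul_comm]
  · rw [Equiv.Perm.sign_of_cycleType]
    have : σ.cycleType.sum = m * Multiset.card σ.cycleType := by
      conv_lhs => rw [hrep]
      simp [mul_comm]
    rw [this, pow_add, (hm.mul_right _).neg_one_pow, one_mul]

/-- N -/
theorem arith {q n k : ℕ} (hq : Odd q) (hq1 : 1 < q) (hn : 3 ≤ n)
    (h : (q ^ (n - 1) + 1) * k + (q ^ 2 + q) = q ^ (2 * n) + q ^ n ∨
      (q ^ (n - 1) + 1) * k + (q ^ 2 - q) = q ^ (2 * n) + q ^ n) : Odd k := by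
  obtain ⟨t, rfl⟩ : ∃ t, n = t + 1 := ⟨n - 1, by omega⟩
  have hq3 : 3 ≤ q := by
    obtain ⟨a, rfl⟩ := hq
    omega
  have hQodd : Odd (q ^ t) := hq.pow
  have hQge : q ^ 2 ≤ q ^ t := Nat.pow_le_pow_right (by omega) (by omega)
  obtain ⟨P, hP⟩ : ∃ P, q ^ t = P + 1 := ⟨q ^ t - 1, by have := Nat.one_le_pow t q (by omega); omega⟩
  have hPeven : Even P := by
    rw [hP] at hQodd
    by_contra hcon
    rw [Nat.not_even_iff_odd] at hcon
    exact (Nat.not_even_iff_odd.2 hQodd) (hcon.add_one)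
  have e1 : q ^ (2 * (t + 1)) = q ^ 2 * (P + 1) ^ 2 := by
    rw [← hP]; ring
  have e2 : q ^ (t + 1) = q * (P + 1) := by
    rw [← hP]; ring
  rw [Nat.add_sub_cancel, e1, e2, hP] at h
  rcases h with h | h
  · exfalso
    have h1 : (P + 1 + 1) * k + 2 * q = (P + 1 + 1) * (q ^ 2 * P + q) := by nlinarith
    have h2 : (P + 1 + 1) ∣ 2 * q := by
      have h3 : (P + 1 + 1) ∣ (P + 1 + 1) * k + 2 * q := by rw [h1]; exact Dvd.intro _ rfl
      exact (Nat.dvd_add_right (Dvd.intro _ rfl)).1 h3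
    have h4 := Nat.le_of_dvd (by omega) h2
    nlinarith
  · have hle : q ≤ q ^ 2 := by nlinarith
    have h1 : (P + 1 + 1) * k = (P + 1 + 1) * (q ^ 2 * P + q) := by
      have h5 : (P + 1 + 1) * k + q ^ 2 = q ^ 2 * (P + 1) ^ 2 + q * (P + 1) + q := by omega
      nlinarith
    have h2 : k = q ^ 2 * P + q := Nat.eq_of_mul_eq_mul_left (by omega) h1
    rw [h2]
    exact (hPeven.mul_left _).add_odd hq

end Cfsg.Agent.Lib.Helper99.SPD
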